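/-
External actions: `[G, A]` and `C_G(A)` in the semidirect product.
-/
import Cfsg.Agent.Lib.Coprime.Bridge
import Mathlib.GroupTheory.GroupAction.Defs

set_option autoImplicit false
open Pointwise

namespace Cfsg.Agent.Lib.Coprime.BridgeComm

open Cfsg.Agent.Lib.Coprime.SchurZassenhaus Cfsg.Agent.Lib.Coprime.Action Cfsg.Agent.Lib.Coprime.Bridge
open scoped commutatorElement

universe u v

variable {A : Type v} {G : Type u} [Group A] [Group G] [MulDistribMulAction A G]

/-- The subgroup `[G, A]`, external form. -/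
def commSet (A : Type v) (G : Type u) [Group A] [Group G] [MulDistribMulAction A G] : Set G :=
  {y : G | ∃ (a : A) (g : G), y = g⁻¹ * a • g}

theorem map_closure_commSet :
    (Subgroup.closure (commSet A G)).map (inG : G →* Gam A G) = ⁅rangeG A G, rangeA A G⁆ := by
  rw [MonoidHom.map_closure, Subgroup.commutator_def]
  congr 1
  ext y
  constructor
  · rintro ⟨_, ⟨a, g, rfl⟩, rfl⟩
    refine ⟨inG g⁻¹, ⟨g⁻¹, rfl⟩, inA a, ⟨a, rfl⟩, ?_⟩
    rw [commutatorElement_def, map_mul, ← inA_conj_inG, map_inv]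
    group
  · rintro ⟨_, ⟨g, rfl⟩, _, ⟨a, rfl⟩, rfl⟩
    refine ⟨g * a • g⁻¹, ⟨a, g⁻¹, by simp⟩, ?_⟩
    rw [commutatorElement_def, map_mul, ← inA_conj_inG, map_inv]
    group

theorem map_fixedPoints_subgroup :
    (FixedPoints.subgroup A G).map (inG : G →* Gam A G) =
      rangeG A G ⊓ Subgroup.centralizer ((rangeA A G : Subgroup (Gam A G)) : Set (Gam A G)) := by
  ext y
  constructor
  · rintro ⟨g, hg, rfl⟩
    exact Subgroup.mem_inf.mpr ⟨⟨g, rfl⟩, (mem_centralizer_rangeA_iff g).mpr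
      ((FixedPoints.mem_subgroup A G g).mp hg)⟩
  · intro hy
    obtain ⟨⟨g, rfl⟩, hy2⟩ := Subgroup.mem_inf.mp hy
    exact ⟨g, (FixedPoints.mem_subgroup A G g).mpr ((mem_centralizer_rangeA_iff g).mp hy2), rfl⟩

theorem map_top : (⊤ : Subgroup G).map (inG : G →* Gam A G) = rangeG A G := by
  rw [← MonoidHom.range_eq_map]
  rfl

end Cfsg.Agent.Lib.Coprime.BridgeComm
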