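/-
Two `p`-nilpotent complements of a normal `p`-subgroup `N`, with no fixed points on `N`, are `N`-conjugate.
-/
import Cfsg.Agent.Lib.Coprime.Complement
import Cfsg.Prelude.Def_Transfer

set_option autoImplicit false
open Pointwise

namespace Cfsg.Agent.Lib.Coprime.FpfComplement

open Cfsg.Agent.Lib.Coprime.SchurZassenhaus Cfsg.Agent.Lib.Coprime.Action
  Cfsg.Agent.Lib.Coprime.Ext Cfsg.Agent.Lib.Coprime.Complement

universe u

variable {G : Type u} [Group G] [Finite G] {p : ℕ} [Fact p.Prime]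

/-- Data of a complement with a normal `p`-complement: the elements of order prime to `p`
lie in `N ⊔ K`. -/
theorem mem_sup_of_not_dvd (N : Subgroup G) [N.Normal] (A : Subgroup G)
    (hA : A.IsComplement' N) (P : Sylow p A) (L : Subgroup A) (hLn : L.Normal)
    (hLP : L.IsComplement' (P : Subgroup A)) {g : G} (hg : ¬ p ∣ orderOf g) :
    g ∈ N ⊔ L.map A.subtype := by
  set K : Subgroup G := L.map A.subtype with hK
  have hKA : K ≤ A := Subgroup.map_subtype_le L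
  have hcardK : Nat.card K = Nat.card L := by
    rw [hK, Subgroup.card_map_of_injective A.subtype_injective]
  have hNn : ∀ T : Subgroup G, T ≤ Subgroup.normalizer (N : Set G) := by
    intro T
    rw [Subgroup.le_normalizer_iff]
    intro t _ x hx
    exact ‹N.Normal›.conj_mem x hx t
  have hdisj : N ⊓ K = ⊥ := by
    rw [eq_bot_iff]
    intro x hx
    obtain ⟨hx1, hx2⟩ := Subgroup.mem_inf.mp hx
    have := hA.disjoint
    rw [disjoint_iff] at this
    have h2 : x ∈ A ⊓ N := Subgroup.mem_inf.mpr ⟨hKA hx2, hx1⟩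
    rwa [this] at h2
  have hcardW := card_sup_of_le_normalizer (hNn K) hdisj
  set W : Subgroup G := N ⊔ K with hW
  -- `W` is normal
  have hKconj : ∀ a ∈ A, ∀ k ∈ K, a * k * a⁻¹ ∈ K := by
    intro a ha k hk
    obtain ⟨l, hl, rfl⟩ := hk
    exact ⟨_, hLn.conj_mem l hl ⟨a, ha⟩, rfl⟩
  have hNW : N ≤ W := le_sup_left
  have hWa : ∀ a ∈ A, ∀ x ∈ W, a * x * a⁻¹ ∈ W := by
    intro a ha x hx
    obtain ⟨n', hn', k', hk', rfl⟩ := exists_mul_of_mem_sup (hNn K) hx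
    have e : a * (n' * k') * a⁻¹ = (a * n' * a⁻¹) * (a * k' * a⁻¹) := by group
    rw [e]
    exact Subgroup.mul_mem_sup (‹N.Normal›.conj_mem n' hn' a) (hKconj a ha k' hk')
  have hWn : W.Normal := by
    constructor
    intro x hx g
    obtain ⟨⟨a, n⟩, e⟩ := hA.2 g
    have e' : g = (a : G) * n := e.symm
    have h1 : (n : G) * x * (n : G)⁻¹ ∈ W := W.mul_mem (W.mul_mem (hNW n.2) hx) (W.inv_mem (hNW n.2))
    have h2 := hWa a a.2 _ h1
    rw [e']
    have e2 : (a : G) * n * x * ((a : G) * n)⁻¹ = (a : G) * ((n : G) * x * (n : G)⁻¹) * (a : G)⁻¹ := by group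
    rw [e2]
    exact h2
  -- the index of `W` is a power of `p`
  have hidx : W.index = Nat.card (P : Subgroup A) := by
    have h1 := W.index_mul_card
    have h2 := hA.card_mul_card
    have h3 := hLP.card_mul_card
    rw [← hcardW, hcardK] at h1
    rw [← h2, ← h3] at h1
    have hpos : 0 < Nat.card N * Nat.card L := Nat.mul_pos Nat.card_pos Nat.card_pos
    apply Nat.eq_of_mul_eq_mul_right hpos
    rw [h1]
    ring
  obtain ⟨m, hm⟩ := IsPGroup.iff_card.mp P.isPGroup'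
  have hcop : Nat.Coprime (p ^ m) (orderOf g) :=
    Nat.Coprime.pow_left m (((Fact.out : p.Prime).coprime_iff_not_dvd).mpr hg)
  have h4 : (QuotientGroup.mk g : G ⧸ W) ^ (p ^ m) = 1 := by
    rw [← hm, ← hidx, Subgroup.index_eq_card]
    exact pow_card_eq_one'
  have h5 : (QuotientGroup.mk g : G ⧸ W) ^ orderOf g = 1 := by
    rw [← QuotientGroup.mk_pow, pow_orderOf_eq_one, QuotientGroup.mk_one]
  have h6 := pow_gcd_eq_one.mpr ⟨h4, h5⟩
  rw [hcop.gcd_eq_one, pow_one] at h6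
  exact (QuotientGroup.eq_one_iff g).mp h6

/-- Main theorem: `A₁` is `N`-conjugate to `A`. Only `C_N(A₁) = 1` is used. -/
theorem exists_conj_of_hasNormalPComplement (N : Subgroup G) [N.Normal] (hN : IsPGroup p N)
    (A A₁ : Subgroup G) (hA : A.IsComplement' N) (hA₁ : A₁.IsComplement' N)
    (hAp : Cfsg.HasNormalPComplement p A) (hA₁p : Cfsg.HasNormalPComplement p A₁)
    (hC₁ : ∀ n : G, n ∈ N → (∀ a : G, a ∈ A₁ → a * n * a⁻¹ = n) → n = 1) :
    ∃ n : G, n ∈ N ∧ A₁ = A.map (MulAut.conj n).toMonoidHom := by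
  obtain ⟨P, L, hLn, hLP⟩ := hAp
  obtain ⟨P₁, L₁, hL₁n, hL₁P₁⟩ := hA₁p
  set K : Subgroup G := L.map A.subtype with hK
  set K₁ : Subgroup G := L₁.map A₁.subtype with hK₁
  have hNn : ∀ T : Subgroup G, T ≤ Subgroup.normalizer (N : Set G) := by
    intro T
    rw [Subgroup.le_normalizer_iff]
    intro t _ x hx
    exact ‹N.Normal›.conj_mem x hx t
  have hpL : ¬ p ∣ Nat.card L := by
    rw [← hLP.index_eq_card]
    exact P.not_dvd_index
  have hpL₁ : ¬ p ∣ Nat.card L₁ := by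
    rw [← hL₁P₁.index_eq_card]
    exact P₁.not_dvd_index
  have hcardK : Nat.card K = Nat.card L := by
    rw [hK, Subgroup.card_map_of_injective A.subtype_injective]
  have hcardK₁ : Nat.card K₁ = Nat.card L₁ := by
    rw [hK₁, Subgroup.card_map_of_injective A₁.subtype_injective]
  have hKA : K ≤ A := Subgroup.map_subtype_le L
  have hK₁A₁ : K₁ ≤ A₁ := Subgroup.map_subtype_le L₁
  have hle1 : K₁ ≤ N ⊔ K := by
    intro x hx
    apply mem_sup_of_not_dvd N A hA P L hLn hLP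
    intro h
    exact hpL₁ (hcardK₁ ▸ h.trans (Subgroup.orderOf_dvd_natCard K₁ hx))
  have hle2 : K ≤ N ⊔ K₁ := by
    intro x hx
    apply mem_sup_of_not_dvd N A₁ hA₁ P₁ L₁ hL₁n hL₁P₁
    intro h
    exact hpL (hcardK ▸ h.trans (Subgroup.orderOf_dvd_natCard K hx))
  have hsup : N ⊔ K = N ⊔ K₁ := le_antisymm (sup_le le_sup_left hle2) (sup_le le_sup_left hle1)
  have hdisjA : A ⊓ N = ⊥ := disjoint_iff.mp hA.disjoint
  have hdisjA₁ : A₁ ⊓ N = ⊥ := disjoint_iff.mp hA₁.disjoint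
  have hdisj : N ⊓ K = ⊥ := by
    rw [eq_bot_iff, ← hdisjA, inf_comm]
    exact inf_le_inf_right _ hKA
  have hdisj₁ : N ⊓ K₁ = ⊥ := by
    rw [eq_bot_iff, ← hdisjA₁, inf_comm]
    exact inf_le_inf_right _ hK₁A₁
  have hcard : Nat.card K₁ = Nat.card K := by
    have h1 := card_sup_of_le_normalizer (hNn K) hdisj
    have h2 := card_sup_of_le_normalizer (hNn K₁) hdisj₁
    rw [hsup, ← h2] at h1
    exact (Nat.eq_of_mul_eq_mul_left Nat.card_pos h1).symm
  have hcop : (Nat.card N).Coprime (Nat.card K) := by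
    obtain ⟨m, hm⟩ := IsPGroup.iff_card.mp hN
    rw [hm, hcardK]
    exact Nat.Coprime.pow_left m (((Fact.out : p.Prime).coprime_iff_not_dvd).mpr hpL)
  obtain ⟨n, hn, hnK⟩ := exists_conj_of_le_sup (hNn K) hle1 hcard hcop
    (Or.inl (by
      have : Group.IsNilpotent N := hN.isNilpotent
      infer_instance))
  refine ⟨n, hn, ?_⟩
  -- `A₁` normalizes `K₁`
  have hA₁K₁ : A₁ ≤ Subgroup.normalizer (K₁ : Set G) := by
    rw [Subgroup.le_normalizer_iff]
    intro a ha k hk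
    obtain ⟨l, hl, rfl⟩ := hk
    exact ⟨_, hL₁n.conj_mem l hl ⟨a, ha⟩, rfl⟩
  -- `A₂ := n A n⁻¹` normalizes `K₁`
  set A₂ : Subgroup G := MulAut.conj n • A with hA₂
  have hA₂K₁ : A₂ ≤ Subgroup.normalizer (K₁ : Set G) := by
    rw [Subgroup.le_normalizer_iff]
    intro a ha k hk
    rw [← hnK, mem_conj_smul_iff] at hk ⊢
    rw [hA₂, mem_conj_smul_iff] at ha
    have h1 : n⁻¹ * (a * k * a⁻¹) * n = (n⁻¹ * a * n) * (n⁻¹ * k * n) * (n⁻¹ * a * n)⁻¹ := by group
    rw [h1]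
    obtain ⟨l, hl, e⟩ := hk
    rw [← e]
    exact ⟨_, hLn.conj_mem l hl ⟨_, ha⟩, rfl⟩
  -- `Y = N_N(K₁) = 1`
  set Y : Subgroup G := N ⊓ Subgroup.normalizer (K₁ : Set G) with hY
  have hYbot : Y = ⊥ := by
    by_contra hne
    set S : Subgroup G := (P₁ : Subgroup A₁).map A₁.subtype with hS
    have hSA₁ : S ≤ A₁ := Subgroup.map_subtype_le _
    have hSp : IsPGroup p S := P₁.isPGroup'.map A₁.subtype
    have hYp : IsPGroup p Y := hN.to_le inf_le_left
    have hSY : S ≤ Subgroup.normalizer (Y : Set G) := by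
      rw [Subgroup.le_normalizer_iff]
      intro s hs y hy
      obtain ⟨hy1, hy2⟩ := Subgroup.mem_inf.mp hy
      refine Subgroup.mem_inf.mpr ⟨‹N.Normal›.conj_mem y hy1 s, ?_⟩
      exact Subgroup.mul_mem _ (Subgroup.mul_mem _ (hA₁K₁ (hSA₁ hs)) hy2)
        (Subgroup.inv_mem _ (hA₁K₁ (hSA₁ hs)))
    obtain ⟨y, hy, hy1, hyc⟩ := exists_ne_one_mem_centralizer hSp hYp hSY hne
    apply hy1
    apply hC₁ y (Subgroup.mem_inf.mp hy).1
    obtain ⟨hy2, hy3⟩ := Subgroup.mem_inf.mp hy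
    have hycomK : ∀ k ∈ K₁, k * y * k⁻¹ = y := by
      intro k hk
      have h1 : y * k * y⁻¹ ∈ K₁ := Subgroup.le_normalizer_iff.mp
        (Subgroup.zpowers_le.mpr hy3) y (Subgroup.mem_zpowers y) k hk
      have h2 : y * k * y⁻¹ * k⁻¹ ∈ K₁ := K₁.mul_mem h1 (K₁.inv_mem hk)
      have h3 : y * k * y⁻¹ * k⁻¹ ∈ N := by
        have h4 : y * (k * y⁻¹ * k⁻¹) = y * k * y⁻¹ * k⁻¹ := by group
        rw [← h4]
        exact N.mul_mem hy2 (‹N.Normal›.conj_mem _ (N.inv_mem hy2) k)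
      have h5 : y * k * y⁻¹ * k⁻¹ ∈ N ⊓ K₁ := Subgroup.mem_inf.mpr ⟨h3, h2⟩
      rw [hdisj₁, Subgroup.mem_bot] at h5
      have h6 : y * k = k * y := by
        have h7 : y * k * y⁻¹ = k := by
          calc y * k * y⁻¹ = y * k * y⁻¹ * k⁻¹ * k := by group
            _ = k := by rw [h5, one_mul]
        calc y * k = y * k * y⁻¹ * y := by group
          _ = k * y := by rw [h7]
      rw [← h6]
      group
    intro a ha
    obtain ⟨⟨l, s⟩, e⟩ := hL₁P₁.2 ⟨a, ha⟩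
    have e' : a = ((l : A₁) : G) * ((s : A₁) : G) := by
      have := congrArg Subtype.val e
      exact this.symm
    have hl : ((l : A₁) : G) ∈ K₁ := ⟨l, l.2, rfl⟩
    have hs : ((s : A₁) : G) ∈ S := ⟨s, s.2, rfl⟩
    have hsy : ((s : A₁) : G) * y = y * ((s : A₁) : G) :=
      Subgroup.mem_centralizer_iff.mp hyc _ hs
    rw [e']
    have h8 := hycomK _ hl
    calc ((l : A₁) : G) * ((s : A₁) : G) * y * (((l : A₁) : G) * ((s : A₁) : G))⁻¹
        = ((l : A₁) : G) * (((s : A₁) : G) * y) * ((s : A₁) : G)⁻¹ * ((l : A₁) : G)⁻¹ := by group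
      _ = ((l : A₁) : G) * y * ((l : A₁) : G)⁻¹ := by rw [hsy]; group
      _ = y := h8
  -- conclusion
  have hle : A₁ ≤ A₂ := by
    intro a₁ ha₁
    -- write `n⁻¹ a₁ n = a m`
    obtain ⟨⟨a, m⟩, e⟩ := hA.2 (n⁻¹ * a₁ * n)
    have e' : n⁻¹ * a₁ * n = (a : G) * m := e.symm
    set a₂ : G := n * (a : G) * n⁻¹ with ha₂
    have ha₂A₂ : a₂ ∈ A₂ := by
      rw [hA₂, mem_conj_smul_iff, ha₂]
      simp [mul_assoc]
    set m₂ : G := n * (m : G) * n⁻¹ with hm₂
    have hm₂N : m₂ ∈ N := ‹N.Normal›.conj_mem _ m.2 n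
    have e2 : a₁ = a₂ * m₂ := by
      have h1 : a₁ = n * (n⁻¹ * a₁ * n) * n⁻¹ := by group
      rw [h1, e', ha₂, hm₂]
      group
    have hm₂eq : m₂ = a₂⁻¹ * a₁ := by rw [e2]; group
    have hm₂Y : m₂ ∈ Y := by
      refine Subgroup.mem_inf.mpr ⟨hm₂N, ?_⟩
      rw [hm₂eq]
      exact Subgroup.mul_mem _ (Subgroup.inv_mem _ (hA₂K₁ ha₂A₂)) (hA₁K₁ ha₁)
    rw [hYbot, Subgroup.mem_bot] at hm₂Y
    rw [e2, hm₂Y, mul_one]
    exact ha₂A₂
  apply Subgroup.eq_of_le_of_card_ge hle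
  have h1 := hA.card_mul_card
  have h2 := hA₁.card_mul_card
  have h3 : Nat.card A₂ = Nat.card A := card_conj_smul n A
  rw [h3]
  rw [← h2] at h1
  exact (Nat.eq_of_mul_eq_mul_right Nat.card_pos h1).le

end Cfsg.Agent.Lib.Coprime.FpfComplement
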