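/-
`S = P Q`, `Q ≅ E_{q²}` with exactly two subgroups of order `q` having nontrivial fixed points on `P`:
then `P = C_P(X₁) × C_P(X₂)`.
-/
import Cfsg.Agent.Lib.Coprime.Generation2
import Cfsg.Agent.Lib.Coprime.Abelian

set_option autoImplicit false
open Pointwise

namespace Cfsg.Agent.Lib.Coprime.TwoFixed

open Cfsg.Agent.Lib.Coprime.SchurZassenhaus Cfsg.Agent.Lib.Coprime.Action
open Cfsg.Agent.Lib.Coprime.Ext Cfsg.Agent.Lib.Coprime.Generation Cfsg.Agent.Lib.Coprime.Generation2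
open Cfsg.Agent.Lib.Coprime.Abelian
open scoped commutatorElement IsMulCommutative

universe u

variable {S : Type u} [Group S] [Finite S]

theorem commutator_inf_fixed_le {p : ℕ} [Fact p.Prime]
    {P X₁ P₁ P₂ : Subgroup S} (hPp : IsPGroup p P) (hX₁p : ¬ p ∣ Nat.card X₁)
    (hP₁ : P₁ ≤ P) (hP₂ : P₂ ≤ P)
    (hP₁C : P₁ ≤ Subgroup.centralizer (X₁ : Set S))
    (hX₁P₂ : X₁ ≤ Subgroup.normalizer (P₂ : Set S))
    (hP₂C : P₂ ⊓ Subgroup.centralizer (X₁ : Set S) = ⊥)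
    (hPT : P ≤ Subgroup.normalizer ((⁅P₁, P₂⁆ : Subgroup S) : Set S))
    (hX₁T : X₁ ≤ Subgroup.normalizer ((⁅P₁, P₂⁆ : Subgroup S) : Set S))
    [hMn : (⁅⁅P₁, P₂⁆, P⁆ : Subgroup S).Normal] :
    (⁅P₁, P₂⁆ : Subgroup S) ⊓ Subgroup.centralizer (X₁ : Set S) ≤ ⁅⁅P₁, P₂⁆, P⁆ := by
  set T : Subgroup S := ⁅P₁, P₂⁆ with hT
  set M : Subgroup S := ⁅T, P⁆ with hM
  have hTP : T ≤ P := (Subgroup.commutator_mono hP₁ hP₂).trans
    (commutator_le_of_le_normalizer Subgroup.le_normalizer)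
  have hMT : M ≤ T := commutator_le_of_le_normalizer hPT
  have hMnorm : ∀ Y : Subgroup S, Y ≤ Subgroup.normalizer (M : Set S) := by
    intro Y
    rw [Subgroup.le_normalizer_iff]
    intro y _ x hx
    exact hMn.conj_mem x hx y
  have hP₂p : IsPGroup p P₂ := hPp.to_le hP₂
  have hP₂solv : Group.IsSolvable P₂ := by
    have : Group.IsNilpotent P₂ := hP₂p.isNilpotent
    infer_instance
  have hcop : (Nat.card X₁).Coprime (Nat.card P₂) := by
    obtain ⟨k, hk⟩ := IsPGroup.iff_card.mp hP₂p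
    rw [hk]
    exact (Nat.Coprime.pow_left k (((Fact.out : p.Prime).coprime_iff_not_dvd).mpr hX₁p)).symm
  have h1 : ⁅P₂, X₁⁆ = P₂ := by
    have := commutator_sup_fixed hX₁P₂ hcop (Or.inr hP₂solv)
    rwa [hP₂C, sup_bot_eq] at this
  set W : Subgroup S := M ⊔ ⁅T, X₁⁆ with hW
  have hWT : W ≤ T := sup_le hMT (commutator_le_of_le_normalizer hX₁T)
  have hPW : P ≤ Subgroup.normalizer (W : Set S) := by
    rw [Subgroup.le_normalizer_iff]
    intro x hx w hw
    have h2 : ⁅x, w⁆ ∈ M := by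
      rw [hM, Subgroup.commutator_comm]
      exact Subgroup.commutator_mem_commutator hx (hWT hw)
    have e : x * w * x⁻¹ = ⁅x, w⁆ * w := by
      rw [commutatorElement_def]
      group
    rw [e]
    exact W.mul_mem (Subgroup.mem_sup_left h2) hw
  have hX₁W : X₁ ≤ Subgroup.normalizer (W : Set S) := by
    rw [Subgroup.le_normalizer_iff]
    intro x hx w hw
    obtain ⟨m, hm, c, hc, rfl⟩ := exists_mul_of_mem_sup
      (hMnorm (⁅T, X₁⁆ : Subgroup S)) hw
    have e : x * (m * c) * x⁻¹ = (x * m * x⁻¹) * (x * c * x⁻¹) := by group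
    rw [e]
    exact Subgroup.mul_mem_sup (hMn.conj_mem m hm x)
      (conj_mem_of_le_normalizer (le_normalizer_commutator_of_le hX₁T Subgroup.le_normalizer) hx hc)
  have hTW : T ≤ W := by
    have h3 := three_subgroups_rel P₂ X₁ P₁ W
      (by
        have h4 : ⁅X₁, P₁⁆ = ⊥ := by
          rw [Subgroup.commutator_comm, Subgroup.commutator_eq_bot_iff_le_centralizer]
          exact hP₁C
        rw [h4, Subgroup.commutator_bot_left]
        exact bot_le)
      (le_sup_right)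
      (hP₂.trans hPW) hX₁W (hP₁.trans hPW)
    rw [h1] at h3
    rw [hT, Subgroup.commutator_comm]
    exact h3
  -- the quotient by `M`
  set φ := QuotientGroup.mk' M with hφ
  set V : Subgroup (S ⧸ M) := T.map φ with hV
  set X' : Subgroup (S ⧸ M) := X₁.map φ with hX'
  have hVcomm : IsMulCommutative V := by
    refine ⟨⟨?_⟩⟩
    rintro ⟨_, x, hx, rfl⟩ ⟨_, y, hy, rfl⟩
    apply Subtype.ext
    show φ x * φ y = φ y * φ x
    have h5 : ⁅x, y⁆ ∈ M := Subgroup.commutator_mem_commutator hx (hTP hy)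
    have h6 : φ ⁅x, y⁆ = 1 := (QuotientGroup.eq_one_iff _).mpr h5
    rw [map_commutatorElement, commutatorElement_eq_one_iff_mul_comm] at h6
    exact h6
  have hX'V : X' ≤ Subgroup.normalizer (V : Set (S ⧸ M)) :=
    (Subgroup.map_mono hX₁T).trans (Subgroup.le_normalizer_map φ)
  have hcop' : (Nat.card X').Coprime (Nat.card V) := by
    have h7 : (Nat.card X₁).Coprime (Nat.card T) := by
      obtain ⟨k, hk⟩ := IsPGroup.iff_card.mp (hPp.to_le hTP)
      rw [hk]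
      exact (Nat.Coprime.pow_left k (((Fact.out : p.Prime).coprime_iff_not_dvd).mpr hX₁p)).symm
    exact Nat.Coprime.coprime_dvd_left (Subgroup.card_map_dvd _ _)
      (Nat.Coprime.coprime_dvd_right (Subgroup.card_map_dvd _ _) h7)
  have key := inf_commutator_eq_bot hX'V hcop'
  intro t ht
  obtain ⟨ht1, ht2⟩ := Subgroup.mem_inf.mp ht
  have hmem : φ t ∈ (V ⊓ Subgroup.centralizer (X' : Set (S ⧸ M))) ⊓ ⁅V, X'⁆ := by
    refine Subgroup.mem_inf.mpr ⟨Subgroup.mem_inf.mpr ⟨⟨t, ht1, rfl⟩, ?_⟩, ?_⟩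
    · rw [Subgroup.mem_centralizer_iff]
      rintro _ ⟨x, hx, rfl⟩
      rw [← map_mul, ← map_mul, Subgroup.mem_centralizer_iff.mp ht2 x hx]
    · obtain ⟨m, hm, c, hc, e⟩ := exists_mul_of_mem_sup (hMnorm (⁅T, X₁⁆ : Subgroup S)) (hTW ht1)
      have hφm : φ m = 1 := (QuotientGroup.eq_one_iff m).mpr hm
      rw [e, map_mul, hφm, one_mul, hV, hX', ← Subgroup.map_commutator]
      exact ⟨c, hc, rfl⟩
  rw [key, Subgroup.mem_bot] at hmem
  exact (QuotientGroup.eq_one_iff t).mp hmem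

/-- Two subgroups of the same prime order containing a common nontrivial element are equal. -/
theorem eq_of_mem_of_card_prime {q : ℕ} (hq : q.Prime) {K L : Subgroup S} (hK : Nat.card K = q)
    (hL : Nat.card L = q) {x : S} (hxK : x ∈ K) (hxL : x ∈ L) (hx : x ≠ 1) : K = L := by
  have h1 : Nat.card (K ⊓ L : Subgroup S) ∣ q := hK ▸ Subgroup.card_dvd_of_le inf_le_left
  rcases (Nat.dvd_prime hq).mp h1 with h | h
  · exfalso
    have h2 : K ⊓ L = ⊥ := Subgroup.card_eq_one.mp h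
    have h3 : x ∈ K ⊓ L := Subgroup.mem_inf.mpr ⟨hxK, hxL⟩
    rw [h2, Subgroup.mem_bot] at h3
    exact hx h3
  · have h2 : K ⊓ L = K := Subgroup.eq_of_le_of_card_ge inf_le_left (by rw [h, hK])
    have h3 : K ⊓ L = L := Subgroup.eq_of_le_of_card_ge inf_le_right (by rw [h, hL])
    rw [← h2, h3]

theorem main {p q : ℕ} [Fact p.Prime] [Fact q.Prime] (hpq : p ≠ q)
    (P : Subgroup S) (hPp : IsPGroup p P) [hPn : P.Normal]
    (Q : Subgroup S) (hQ : Cfsg.IsElementaryAbelian q Q) (hQc : Nat.card Q = q ^ 2)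
    (hS : P ⊔ Q = ⊤)
    (X₁ X₂ : Subgroup S) (h₁ : X₁ ≤ Q) (h₂ : X₂ ≤ Q) (h₁₂ : X₁ ≠ X₂) (hc₁ : Nat.card X₁ = q)
    (hc₂ : Nat.card X₂ = q)
    (hf₁ : P ⊓ Subgroup.centralizer (X₁ : Set S) ≠ ⊥)
    (hf₂ : P ⊓ Subgroup.centralizer (X₂ : Set S) ≠ ⊥)
    (honly : ∀ X : Subgroup S, X ≤ Q → Nat.card X = q →
      P ⊓ Subgroup.centralizer (X : Set S) ≠ ⊥ → X = X₁ ∨ X = X₂) :
    ⁅P ⊓ Subgroup.centralizer (X₁ : Set S), P ⊓ Subgroup.centralizer (X₂ : Set S)⁆ = ⊥ ∧
      (P ⊓ Subgroup.centralizer (X₁ : Set S)) ⊓ (P ⊓ Subgroup.centralizer (X₂ : Set S)) = ⊥ ∧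
      (P ⊓ Subgroup.centralizer (X₁ : Set S)) ⊔ (P ⊓ Subgroup.centralizer (X₂ : Set S)) = P := by
  have hqp : q.Prime := Fact.out
  have hpp : p.Prime := Fact.out
  set P₁ : Subgroup S := P ⊓ Subgroup.centralizer (X₁ : Set S) with hP₁
  set P₂ : Subgroup S := P ⊓ Subgroup.centralizer (X₂ : Set S) with hP₂
  have hP₁P : P₁ ≤ P := inf_le_left
  have hP₂P : P₂ ≤ P := inf_le_left
  have hPnorm : ∀ T : Subgroup S, T ≤ Subgroup.normalizer (P : Set S) := by
    intro T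
    rw [Subgroup.le_normalizer_iff]
    intro t _ x hx
    exact hPn.conj_mem x hx t
  have hQcomm : ∀ x ∈ Q, ∀ y ∈ Q, x * y = y * x := by
    intro x hx y hy
    have := hQ.1.is_comm.comm ⟨x, hx⟩ ⟨y, hy⟩
    exact congrArg Subtype.val this
  have hQX : ∀ X : Subgroup S, X ≤ Q → Q ≤ Subgroup.normalizer
      (Subgroup.centralizer (X : Set S) : Set S) := by
    intro X hX
    apply le_normalizer_centralizer
    rw [Subgroup.le_normalizer_iff]
    intro a ha x hx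
    have : a * x * a⁻¹ = x := by
      rw [hQcomm a ha x (hX hx)]
      group
    rw [this]
    exact hx
  have hQPX : ∀ X : Subgroup S, X ≤ Q → Q ≤ Subgroup.normalizer
      ((P ⊓ Subgroup.centralizer (X : Set S) : Subgroup S) : Set S) := by
    intro X hX
    rw [Subgroup.le_normalizer_iff]
    intro a ha x hx
    obtain ⟨hx1, hx2⟩ := Subgroup.mem_inf.mp hx
    exact Subgroup.mem_inf.mpr ⟨hPn.conj_mem x hx1 a, conj_mem_of_le_normalizer (hQX X hX) ha hx2⟩
  have hcardnd : ∀ Y : Subgroup S, Y ≤ P → ¬ q ∣ Nat.card Y := by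
    intro Y hY hd
    obtain ⟨k, hk⟩ := IsPGroup.iff_card.mp (hPp.to_le hY)
    rw [hk] at hd
    exact hpq ((Nat.prime_dvd_prime_iff_eq hqp hpp).mp (hqp.dvd_of_dvd_pow hd)).symm
  -- generation
  have hgen : ∀ Y : Subgroup S, Y ≤ P → Q ≤ Subgroup.normalizer (Y : Set S) →
      Y ≤ (Y ⊓ Subgroup.centralizer (X₁ : Set S)) ⊔ (Y ⊓ Subgroup.centralizer (X₂ : Set S)) := by
    intro Y hY hQY
    conv_lhs => rw [eq_iSup_relIndex_le hQ (hcardnd Y hY) hQY]
    apply iSup_le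
    rintro ⟨B, hB, hidx⟩
    have hdvd : B.relIndex Q ∣ q ^ 2 := hQc ▸ Subgroup.relIndex_dvd_card B Q
    obtain ⟨k, hk, hke⟩ := (Nat.dvd_prime_pow hqp).mp hdvd
    interval_cases k
    · -- `B = Q`
      rw [pow_zero, Subgroup.relIndex_eq_one] at hke
      have hBQ : B = Q := le_antisymm hB hke
      subst hBQ
      apply le_trans _ le_sup_left
      exact inf_le_inf_left _ (Subgroup.centralizer_le h₁)
    · -- order `q`
      have hcB : Nat.card B = q := by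
        have h3 := card_eq_card_mul_relIndex hB
        rw [hQc, hke, pow_one, pow_two] at h3
        exact (Nat.eq_of_mul_eq_mul_right hqp.pos h3).symm
      by_cases hbot : P ⊓ Subgroup.centralizer (B : Set S) = ⊥
      · have h5 : Y ⊓ Subgroup.centralizer (B : Set S) ≤ P ⊓ Subgroup.centralizer (B : Set S) :=
          inf_le_inf_right _ hY
        rw [hbot] at h5
        exact h5.trans bot_le
      · rcases honly B hB hcB hbot with rfl | rfl
        · exact le_sup_left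
        · exact le_sup_right
    · exfalso
      rw [hke] at hidx
      have : q * q ≤ q := by
        calc q * q = q ^ 2 := (pow_two q).symm
          _ ≤ q := hidx
      have h2 := hqp.two_le
      nlinarith
  have hsup : P₁ ⊔ P₂ = P := le_antisymm (sup_le hP₁P hP₂P) (hgen P le_rfl (hPnorm Q))
  -- trivial intersection
  have hinf : P₁ ⊓ P₂ = ⊥ := by
    by_contra hne
    obtain ⟨y, hy⟩ := Subgroup.ne_bot_iff_exists_ne_one.mp hne
    have hy1 : (y : S) ≠ 1 := fun e => hy (Subtype.ext e)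
    obtain ⟨hyP₁, hyP₂⟩ := Subgroup.mem_inf.mp y.2
    obtain ⟨hyP, hyC₁⟩ := Subgroup.mem_inf.mp hyP₁
    obtain ⟨-, hyC₂⟩ := Subgroup.mem_inf.mp hyP₂
    obtain ⟨x₁, hx₁⟩ := Subgroup.ne_bot_iff_exists_ne_one.mp
      ((Subgroup.one_lt_card_iff_ne_bot X₁).mp (hc₁ ▸ hqp.one_lt))
    obtain ⟨x₂, hx₂⟩ := Subgroup.ne_bot_iff_exists_ne_one.mp
      ((Subgroup.one_lt_card_iff_ne_bot X₂).mp (hc₂ ▸ hqp.one_lt))
    have hx₁' : (x₁ : S) ≠ 1 := fun e => hx₁ (Subtype.ext e)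
    have hx₂' : (x₂ : S) ≠ 1 := fun e => hx₂ (Subtype.ext e)
    set z : S := x₁ * x₂ with hz
    have hzQ : z ∈ Q := Q.mul_mem (h₁ x₁.2) (h₂ x₂.2)
    have hz1 : z ≠ 1 := by
      intro e
      have h3 : (x₂ : S) = (x₁ : S)⁻¹ := eq_inv_of_mul_eq_one_right e
      have h4 : (x₂ : S) ∈ X₁ := h3 ▸ X₁.inv_mem x₁.2
      exact h₁₂ (eq_of_mem_of_card_prime hqp hc₁ hc₂ h4 x₂.2 hx₂')
    have hzord : orderOf z = q := orderOf_eq_prime (hQ.2 z hzQ) hz1
    have hzcard : Nat.card (Subgroup.zpowers z) = q := by rw [Nat.card_zpowers, hzord]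
    have hzle : Subgroup.zpowers z ≤ Q := by rw [Subgroup.zpowers_le]; exact hzQ
    have hyz : (y : S) ∈ Subgroup.centralizer ((Subgroup.zpowers z : Subgroup S) : Set S) := by
      rw [Subgroup.mem_centralizer_iff]
      rintro w ⟨n, rfl⟩
      have h5 : z * y = y * z := by
        have h6 := Subgroup.mem_centralizer_iff.mp hyC₁ x₁ x₁.2
        have h7 := Subgroup.mem_centralizer_iff.mp hyC₂ x₂ x₂.2
        rw [hz, mul_assoc, h7, ← mul_assoc, h6, mul_assoc]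
      exact (Commute.zpow_left h5 n)
    have hne3 : P ⊓ Subgroup.centralizer ((Subgroup.zpowers z : Subgroup S) : Set S) ≠ ⊥ := by
      intro h
      have h3 : (y : S) ∈ P ⊓ Subgroup.centralizer ((Subgroup.zpowers z : Subgroup S) : Set S) :=
        Subgroup.mem_inf.mpr ⟨hyP, hyz⟩
      rw [h, Subgroup.mem_bot] at h3
      exact hy1 h3
    rcases honly _ hzle hzcard hne3 with h | h
    · have h3 : z ∈ X₁ := by rw [← h]; exact Subgroup.mem_zpowers z
      have h4 : (x₂ : S) ∈ X₁ := by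
        have : (x₂ : S) = (x₁ : S)⁻¹ * z := by rw [hz]; group
        rw [this]
        exact X₁.mul_mem (X₁.inv_mem x₁.2) h3
      exact h₁₂ (eq_of_mem_of_card_prime hqp hc₁ hc₂ h4 x₂.2 hx₂')
    · have h3 : z ∈ X₂ := by rw [← h]; exact Subgroup.mem_zpowers z
      have h4 : (x₁ : S) ∈ X₂ := by
        have : (x₁ : S) = z * (x₂ : S)⁻¹ := by rw [hz]; group
        rw [this]
        exact X₂.mul_mem h3 (X₂.inv_mem x₂.2)
      exact h₁₂ (eq_of_mem_of_card_prime hqp hc₁ hc₂ x₁.2 h4 hx₁')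
  refine ⟨?_, hinf, hsup⟩
  -- commutation
  set T : Subgroup S := ⁅P₁, P₂⁆ with hT
  have hTP : T ≤ P := (Subgroup.commutator_mono hP₁P hP₂P).trans
    (commutator_le_of_le_normalizer Subgroup.le_normalizer)
  have hP₁T : P₁ ≤ Subgroup.normalizer (T : Set S) := le_normalizer_commutator_left _ _
  have hP₂T : P₂ ≤ Subgroup.normalizer (T : Set S) := le_normalizer_commutator_right _ _
  have hPT : P ≤ Subgroup.normalizer (T : Set S) := by
    rw [← hsup]
    exact sup_le hP₁T hP₂T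
  have hQT : Q ≤ Subgroup.normalizer (T : Set S) :=
    le_normalizer_commutator_of_le (hQPX X₁ h₁) (hQPX X₂ h₂)
  set M : Subgroup S := ⁅T, P⁆ with hM
  have hMn : M.Normal := by
    constructor
    intro n hn g
    have hg : g ∈ P ⊔ Q := by rw [hS]; exact Subgroup.mem_top g
    have hle : P ⊔ Q ≤ Subgroup.normalizer (M : Set S) :=
      sup_le (le_normalizer_commutator_of_le hPT Subgroup.le_normalizer)
        (le_normalizer_commutator_of_le hQT (hPnorm Q))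
    exact conj_mem_of_le_normalizer hle hg hn
  have hnd₁ : ¬ p ∣ Nat.card X₁ := by
    rw [hc₁]
    intro h
    exact hpq ((Nat.prime_dvd_prime_iff_eq hpp hqp).mp h)
  have hnd₂ : ¬ p ∣ Nat.card X₂ := by
    rw [hc₂]
    intro h
    exact hpq ((Nat.prime_dvd_prime_iff_eq hpp hqp).mp h)
  have hP₂C₁ : P₂ ⊓ Subgroup.centralizer (X₁ : Set S) = ⊥ := by
    rw [eq_bot_iff, ← hinf]
    intro x hx
    obtain ⟨hx1, hx2⟩ := Subgroup.mem_inf.mp hx
    exact Subgroup.mem_inf.mpr ⟨Subgroup.mem_inf.mpr ⟨hP₂P hx1, hx2⟩, hx1⟩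
  have hP₁C₂ : P₁ ⊓ Subgroup.centralizer (X₂ : Set S) = ⊥ := by
    rw [eq_bot_iff, ← hinf]
    intro x hx
    obtain ⟨hx1, hx2⟩ := Subgroup.mem_inf.mp hx
    exact Subgroup.mem_inf.mpr ⟨hx1, Subgroup.mem_inf.mpr ⟨hP₁P hx1, hx2⟩⟩
  have key₁ : T ⊓ Subgroup.centralizer (X₁ : Set S) ≤ M :=
    commutator_inf_fixed_le hPp hnd₁ hP₁P hP₂P inf_le_right
      (h₁.trans (hQPX X₂ h₂)) hP₂C₁ hPT (h₁.trans hQT)
  have hT' : ⁅P₂, P₁⁆ = T := Subgroup.commutator_comm _ _
  have key₂ : T ⊓ Subgroup.centralizer (X₂ : Set S) ≤ M := by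
    have hPT' : P ≤ Subgroup.normalizer ((⁅P₂, P₁⁆ : Subgroup S) : Set S) := by rw [hT']; exact hPT
    have hX₂T' : X₂ ≤ Subgroup.normalizer ((⁅P₂, P₁⁆ : Subgroup S) : Set S) := by
      rw [hT']; exact h₂.trans hQT
    have hMn' : (⁅⁅P₂, P₁⁆, P⁆ : Subgroup S).Normal := by rw [hT']; exact hMn
    have := commutator_inf_fixed_le hPp hnd₂ hP₂P hP₁P inf_le_right
      (h₂.trans (hQPX X₁ h₁)) hP₁C₂ hPT' hX₂T'
    rwa [hT'] at this
  have hTM : T ≤ M := (hgen T hTP hQT).trans (sup_le key₁ key₂)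
  have hMT : M ≤ T := commutator_le_of_le_normalizer hPT
  exact eq_bot_of_commutator_eq_self hPp (hPp.to_le hTP) hPT (le_antisymm hMT hTM)

end Cfsg.Agent.Lib.Coprime.TwoFixed
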