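/-
Coprime action on groups with all Sylow subgroups cyclic (Z-groups).
-/
import Cfsg.Agent.Lib.Coprime.Bridge
import Mathlib.GroupTheory.SpecificGroups.ZGroup

set_option autoImplicit false
open Pointwise

namespace Cfsg.Agent.Lib.Coprime.ZGroup

open Cfsg.Agent.Lib.Coprime.SchurZassenhaus Cfsg.Agent.Lib.Coprime.Action
  Cfsg.Agent.Lib.Coprime.Abelian
open scoped commutatorElement IsMulCommutative

universe u

variable {Γ : Type u} [Group Γ] [Finite Γ]

theorem isCyclic_commutator_self (Q : Subgroup Γ) [IsZGroup Q] : IsCyclic (⁅Q, Q⁆ : Subgroup Γ) := by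
  have h := IsZGroup.isCyclic_commutator Q
  let f := Subgroup.equivMapOfInjective (commutator Q) _ Q.subtype_injective
  rw [Subgroup.map_subtype_commutator] at f
  exact isCyclic_of_surjective f f.surjective

omit [Finite Γ] in
/-- A group with cyclic commutator subgroup `D`, generated by commutators with a group normalizing
`D`, centralizes `D`. -/
theorem le_centralizer_of_isCyclic {A Q D : Subgroup Γ} (hD : IsCyclic D)
    (hQD : Q ≤ Subgroup.normalizer (D : Set Γ)) (hAD : A ≤ Subgroup.normalizer (D : Set Γ))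
    (hQQ : ⁅Q, A⁆ = Q) : Q ≤ Subgroup.centralizer (D : Set Γ) := by
  have hcomm : ∀ x y : MulAut D, x * y = y * x := by
    intro x y
    apply (IsCyclic.mulAutMulEquiv D).injective
    rw [map_mul, map_mul, mul_comm]
  rw [← hQQ, Subgroup.commutator_le]
  intro r hr a ha
  set r' : Subgroup.normalizer (D : Set Γ) := ⟨r, hQD hr⟩ with hr'
  set a' : Subgroup.normalizer (D : Set Γ) := ⟨a, hAD ha⟩ with ha'
  have h1 : ⁅r', a'⁆ ∈ D.normalizerMonoidHom.ker := by
    rw [MonoidHom.mem_ker, map_commutatorElement, commutatorElement_eq_one_iff_mul_comm]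
    exact hcomm _ _
  rw [Subgroup.normalizerMonoidHom_ker, Subgroup.mem_subgroupOf] at h1
  exact h1

/-- A group `Q` with cyclic Sylow subgroups with `Q = [Q, A]` is cyclic. -/
theorem isCyclic_of_commutator_eq {A Q : Subgroup Γ} [IsZGroup Q]
    (hAQ : A ≤ Subgroup.normalizer (Q : Set Γ)) (hQQ : ⁅Q, A⁆ = Q) : IsCyclic Q := by
  have hD := isCyclic_commutator_self Q
  have hQD : Q ≤ Subgroup.normalizer ((⁅Q, Q⁆ : Subgroup Γ) : Set Γ) :=
    le_normalizer_commutator_of_le Subgroup.le_normalizer Subgroup.le_normalizer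
  have hAD : A ≤ Subgroup.normalizer ((⁅Q, Q⁆ : Subgroup Γ) : Set Γ) :=
    le_normalizer_commutator_of_le hAQ hAQ
  have hle := le_centralizer_of_isCyclic hD hQD hAD hQQ
  have hnil : Group.IsNilpotent Q := by
    apply Subgroup.isNilpotent_of_lowerCentralSeries_eq_bot (n := 2)
    show ⁅⁅Q, Q⁆, Q⁆ = ⊥
    rw [Subgroup.commutator_comm, Subgroup.commutator_eq_bot_iff_le_centralizer]
    exact hle
  infer_instance

omit [Finite Γ] in
theorem isCyclic_of_isPGroup_of_le {K P : Subgroup Γ} [IsZGroup K] {p : ℕ} [Fact p.Prime]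
    (hP : IsPGroup p P) (hPK : P ≤ K) : IsCyclic P := by
  have h1 : IsPGroup p (P.subgroupOf K) := hP.comap_subtype
  have h2 : IsCyclic (P.subgroupOf K) := h1.isCyclic_of_isZGroup
  exact isCyclic_of_surjective _ (Subgroup.subgroupOfEquivOfLe hPK).surjective

/-- **Coprime action on a Z-group**, internal form. -/
theorem main {A K : Subgroup Γ} [IsZGroup K] (hAK : A ≤ Subgroup.normalizer (K : Set Γ))
    (hcop : (Nat.card A).Coprime (Nat.card K)) :
    IsCyclic (⁅K, A⁆ : Subgroup Γ) ∧ ⁅K, A⁆ ⊓ (K ⊓ Subgroup.centralizer (A : Set Γ)) = ⊥ ∧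
      (Nat.card (K ⊓ Subgroup.centralizer (A : Set Γ) : Subgroup Γ)).Coprime
        (Nat.card (⁅K, A⁆ : Subgroup Γ)) := by
  set Q : Subgroup Γ := ⁅K, A⁆ with hQ
  set C : Subgroup Γ := Subgroup.centralizer (A : Set Γ) with hC
  set F : Subgroup Γ := K ⊓ C with hF
  have hsolvK : Group.IsSolvable K := inferInstance
  have hQK : Q ≤ K := commutator_le_of_le_normalizer hAK
  have hAQ : A ≤ Subgroup.normalizer (Q : Set Γ) := le_normalizer_commutator_right K A
  have hQQ : ⁅Q, A⁆ = Q := commutator_commutator_eq hAK hcop (Or.inr hsolvK)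
  have hZQ : IsZGroup Q := IsZGroup.of_injective (f := Subgroup.inclusion hQK)
    (Subgroup.inclusion_injective hQK)
  have hcopQ : (Nat.card A).Coprime (Nat.card Q) := hcop.coprime_dvd_right (Subgroup.card_dvd_of_le hQK)
  have hQcyc : IsCyclic Q := isCyclic_of_commutator_eq hAQ hQQ
  have hQab : IsMulCommutative Q := by
    let _ := IsCyclic.commGroup (α := Q)
    infer_instance
  have hdisj : Q ⊓ C = ⊥ := by
    have h1 := inf_commutator_eq_bot hAQ hcopQ
    rw [hQQ] at h1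
    rw [eq_bot_iff, ← h1]
    intro x hx
    exact Subgroup.mem_inf.mpr ⟨hx, (Subgroup.mem_inf.mp hx).1⟩
  have hdisj2 : Q ⊓ F = ⊥ := by
    rw [eq_bot_iff, ← hdisj]
    exact inf_le_inf_left _ inf_le_right
  refine ⟨hQcyc, hdisj2, ?_⟩
  apply Nat.coprime_of_dvd
  intro p hp hd₁ hd₂
  have : Fact p.Prime := ⟨hp⟩
  have hFK : F ≤ K := inf_le_left
  have hAF : A ≤ Subgroup.normalizer (F : Set Γ) := by
    rw [Subgroup.le_normalizer_iff]
    intro a ha x hx
    obtain ⟨hx1, hx2⟩ := Subgroup.mem_inf.mp hx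
    have e : a * x * a⁻¹ = x := by
      rw [(Subgroup.mem_centralizer_iff.mp hx2 a ha)]
      group
    rw [e]
    exact hx
  have hcopF : (Nat.card A).Coprime (Nat.card F) := hcop.coprime_dvd_right (Subgroup.card_dvd_of_le hFK)
  obtain ⟨S₁, hS₁, hAS₁⟩ := exists_invariant_sylowIn (p := p) hAF hcopF
    (Or.inr (isSolvable_of_le hFK))
  obtain ⟨S₂, hS₂, hAS₂⟩ := exists_invariant_sylowIn (p := p) hAQ hcopQ
    (Or.inr (isSolvable_of_le hQK))
  have hne : ∀ {S T : Subgroup Γ}, IsSylowIn p S T → p ∣ Nat.card T → S ≠ ⊥ := by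
    intro S T hS hd h0
    have hcard : Nat.card S = 1 := by rw [h0]; exact Subgroup.card_bot
    rw [card_eq_card_mul_relIndex hS.1, hcard, one_mul] at hd
    exact hS.2.2 hd
  have hS₁ne := hne hS₁ hd₁
  have hS₂ne := hne hS₂ hd₂
  obtain ⟨P₁, hP₁, hAP₁, hS₁P₁⟩ := exists_invariant_sylowIn_ge (p := p) hAK hcop (Or.inr hsolvK)
    (hS₁.1.trans hFK) hS₁.2.1 hAS₁
  obtain ⟨P₂, hP₂, hAP₂, hS₂P₂⟩ := exists_invariant_sylowIn_ge (p := p) hAK hcop (Or.inr hsolvK)
    (hS₂.1.trans hQK) hS₂.2.1 hAS₂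
  obtain ⟨c, hc, hcP⟩ := invariant_sylowIn_conj hAK hcop (Or.inr hsolvK) hP₁ hP₂ hAP₁ hAP₂
  have hcC : c ∈ C := (Subgroup.mem_inf.mp hc).2
  have hP₁cyc : IsCyclic P₁ := isCyclic_of_isPGroup_of_le hP₁.2.1 hP₁.1
  have hcopP₁ : (Nat.card P₁).Coprime (Nat.card A) :=
    (hcop.coprime_dvd_right (Subgroup.card_dvd_of_le hP₁.1)).symm
  have hP₁C : P₁ ≤ C := by
    rcases IsPGroup.commutator_eq_bot_or_commutator_eq_self hP₁.2.1 hAP₁ hcopP₁ with h | h
    · rw [Subgroup.commutator_comm, Subgroup.commutator_eq_bot_iff_le_centralizer] at h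
      exact h
    · exfalso
      have hP₁ab : IsMulCommutative P₁ := by
        let _ := IsCyclic.commGroup (α := P₁)
        infer_instance
      have h1 := inf_commutator_eq_bot hAP₁ hcopP₁.symm
      rw [Subgroup.commutator_comm, h] at h1
      apply hS₁ne
      rw [eq_bot_iff, ← h1]
      intro x hx
      have hxF : x ∈ F := hS₁.1 hx
      exact Subgroup.mem_inf.mpr
        ⟨Subgroup.mem_inf.mpr ⟨hS₁P₁ hx, (Subgroup.mem_inf.mp hxF).2⟩, hS₁P₁ hx⟩
  have hP₂C : P₂ ≤ C := by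
    rw [← hcP]
    intro x hx
    rw [mem_conj_smul_iff] at hx
    have h1 : c⁻¹ * x * c ∈ C := hP₁C hx
    have e : x = c * (c⁻¹ * x * c) * c⁻¹ := by group
    rw [e]
    exact C.mul_mem (C.mul_mem hcC h1) (C.inv_mem hcC)
  apply hS₂ne
  rw [eq_bot_iff, ← hdisj]
  intro x hx
  exact Subgroup.mem_inf.mpr ⟨hS₂.1 hx, hP₂C (hS₂P₂ hx)⟩

end Cfsg.Agent.Lib.Coprime.ZGroup
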